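import Cfsg.Agent.StdO8.Frame
import Cfsg.Agent.StdO8.Gen
import Cfsg.Agent.ClassicalGeometry.WittQuad

/-!
# Automorphisms of `Ω₈⁺(2)` centralising an element of order 5 (S5919, task D2)

The standard element `y` of order 5: `U = C_V(y)` has the five singular vectors `dec (cu i)`, `[V, y]` the five singular
vectors `dec (cx i)`, permuted cyclically (`Y y`). `R g σ`: `g` acts on the five singular vectors of `U` as `σ` and
trivially on `[V, y]`.
-/

set_option autoImplicit false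

namespace Cfsg.Agent.H757.S62

open Cfsg.Agent.StdO8 Cfsg.Agent.StdO8.Model Cfsg.Agent.StdO8.Aut Cfsg.Agent.StdO8.Code
open Cfsg.Agent.LieClassical.OrthCore (refl refl_mem_O)

/-! ### Codes -/

/-- The singular vectors of `U`. -/
def cu : Fin 5 → ℕ := ![8, 128, 174, 204, 234]

/-- The singular vectors of `[V, y]`. -/
def cx : Fin 5 → ℕ := ![1, 16, 51, 87, 117]

/-- all ten codes -/
def ten : List ℕ := [8, 128, 174, 204, 234, 1, 16, 51, 87, 117]

/-- the five codes of `[V, y]` -/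
def xs : List ℕ := [1, 16, 51, 87, 117]

/-- sum of a list of codes -/
def fx (l : List ℕ) : ℕ := l.foldr (· ^^^ ·) 0

theorem ten_all : ∀ n < 256, fx (ten.filter fun c => Bn c n) = n := by decide +kernel

theorem foldr_dec {g : V ≃ₗ[ZMod 2] V} {s : ℕ → ℕ} (l : List ℕ) (e : ∀ c ∈ l, g (dec c) = dec (s c)) :
    g (dec (fx l)) = dec (fx (l.map s)) := by
  induction l with
  | nil => rw [List.map_nil, fx, List.foldr_nil, dec_zero, map_zero]
  | cons c l ih =>
    have h1 : fx (c :: l) = c ^^^ fx l := rfl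
    have h2 : fx ((c :: l).map s) = s c ^^^ fx (l.map s) := rfl
    rw [h1, h2, dec_xor, dec_xor, map_add, e c List.mem_cons_self, ih fun c hc => e c (List.mem_cons_of_mem _ hc)]

theorem foldr_eq {g h : V ≃ₗ[ZMod 2] V} (l : List ℕ) (e : ∀ c ∈ l, g (dec c) = h (dec c)) :
    g (dec (fx l)) = h (dec (fx l)) := by
  induction l with
  | nil => rw [fx, List.foldr_nil, dec_zero, map_zero, map_zero]
  | cons c l ih =>
    have h1 : fx (c :: l) = c ^^^ fx l := rfl
    rw [h1, dec_xor, map_add, map_add, e c List.mem_cons_self, ih fun c hc => e c (List.mem_cons_of_mem _ hc)]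

theorem basis_lt : ∀ b ∈ basis, b < 256 := by decide

theorem ext_ten {g h : V ≃ₗ[ZMod 2] V} (e : ∀ c ∈ ten, g (dec c) = h (dec c)) : g = h := by
  apply lin_ext
  intro b hb
  have h1 := foldr_eq (g := g) (h := h) (ten.filter fun c => Bn c b) fun c hc => e c (List.mem_of_mem_filter hc)
  rwa [ten_all b (basis_lt b hb)] at h1

theorem mem_ten : ∀ c ∈ ten, (∃ i, c = cu i) ∨ ∃ i, c = cx i := by decide +kernel

theorem ext_frame {g h : V ≃ₗ[ZMod 2] V} (eu : ∀ i, g (dec (cu i)) = h (dec (cu i)))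
    (ex : ∀ i, g (dec (cx i)) = h (dec (cx i))) : g = h := by
  apply ext_ten
  intro c hc
  rcases mem_ten c hc with ⟨i, rfl⟩ | ⟨i, rfl⟩
  · exact eu i
  · exact ex i

theorem cu_inj : ∀ i j, cu i = cu j → i = j := by decide +kernel
theorem cu_lt : ∀ i, cu i < 256 := by decide +kernel
theorem cx_lt : ∀ i, cx i < 256 := by decide +kernel

/-! ### The relation `R` -/

/-- `g` acts on the frame `u` as `σ` and fixes `[V, y]`. -/
structure R (g : V ≃ₗ[ZMod 2] V) (σ : Equiv.Perm (Fin 5)) : Prop where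
  u : ∀ i, g (dec (cu i)) = dec (cu (σ i))
  x : ∀ i, g (dec (cx i)) = dec (cx i)

section RR

variable {g h : V ≃ₗ[ZMod 2] V} {σ τ : Equiv.Perm (Fin 5)}

theorem R.ext (hg : R g σ) (hh : R h σ) : g = h :=
  ext_frame (fun i => by rw [hg.u, hh.u]) fun i => by rw [hg.x, hh.x]

theorem R.unique (hg : R g σ) (hh : R g τ) : σ = τ := by
  ext i
  have h1 := hg.u i
  rw [hh.u i] at h1
  exact congrArg Fin.val (cu_inj _ _ (dec_inj (cu_lt _) (cu_lt _) h1)).symm

theorem R.one : R 1 1 := ⟨fun _ => rfl, fun _ => rfl⟩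

theorem R.mul (hg : R g σ) (hh : R h τ) : R (g * h) (σ * τ) :=
  ⟨fun i => by
    show g (h _) = _
    rw [hh.u, hg.u]; rfl, fun i => by
    show g (h _) = _
    rw [hh.x, hg.x]⟩

theorem R.inv (hg : R g σ) : R g⁻¹ σ⁻¹ :=
  ⟨fun i => by
    show g.symm _ = _
    rw [LinearEquiv.symm_apply_eq, hg.u]
    congr 1
    congr 1
    exact (Equiv.apply_symm_apply σ i).symm, fun i => by
    show g.symm _ = _
    rw [LinearEquiv.symm_apply_eq, hg.x]⟩

end RR

theorem qn_swap : ∀ i j : Fin 5, i ≠ j → qn (cu i ^^^ cu j) = true := by decide +kernel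

theorem swap_u : ∀ i j k : Fin 5, i ≠ j →
    (cu k ^^^ (if Bn (cu i ^^^ cu j) (cu k) then cu i ^^^ cu j else 0)) = cu (Equiv.swap i j k) := by decide +kernel

theorem swap_x : ∀ i j k : Fin 5, i ≠ j →
    (cx k ^^^ (if Bn (cu i ^^^ cu j) (cx k) then cu i ^^^ cu j else 0)) = cx k := by decide +kernel

theorem q_swap {i j : Fin 5} (h : i ≠ j) : q (dec (cu i ^^^ cu j)) ≠ 0 := by
  rw [q_dec, qn_swap i j h]; decide

theorem R_swap {i j : Fin 5} (h : i ≠ j) : R (refl q (dec (cu i ^^^ cu j)) (q_swap h)) (Equiv.swap i j) :=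
  ⟨fun k => by rw [Gen.refl_dec, swap_u i j k h], fun k => by rw [Gen.refl_dec, swap_x i j k h]⟩

theorem exists_R (σ : Equiv.Perm (Fin 5)) : ∃ g : O8, R (g : V ≃ₗ[ZMod 2] V) σ := by
  induction σ using Equiv.Perm.swap_induction_on with
  | one => exact ⟨1, R.one⟩
  | swap_mul τ i j hij ih =>
    obtain ⟨g, hg⟩ := ih
    exact ⟨⟨_, refl_mem_O (q_swap hij)⟩ * g, (R_swap hij).mul hg⟩

/-! ### Double transpositions -/

/-- test -/
def dtest (i j k : Fin 5) (σ : Equiv.Perm (Fin 5)) : Bool :=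
  i != j && i != k && j != k && (List.finRange 5).all fun n => xn (cu i) (cu j ^^^ cu k) (cu n) == cu (σ n)

theorem dbl0 : ∀ σ : Equiv.Perm (Fin 5), σ * σ = 1 → σ ≠ 1 → Equiv.Perm.sign σ = 1 →
    ∃ i j k : Fin 5, dtest i j k σ = true := by decide +kernel

theorem dbl (σ : Equiv.Perm (Fin 5)) (h1 : σ * σ = 1) (h2 : σ ≠ 1) (h3 : Equiv.Perm.sign σ = 1) :
    ∃ i j k : Fin 5, (i ≠ j ∧ i ≠ k ∧ j ≠ k) ∧ ∀ n, xn (cu i) (cu j ^^^ cu k) (cu n) = cu (σ n) := by
  obtain ⟨i, j, k, h⟩ := dbl0 σ h1 h2 h3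
  rw [dtest, Bool.and_eq_true, Bool.and_eq_true, Bool.and_eq_true, bne_iff_ne, bne_iff_ne, bne_iff_ne,
    List.all_eq_true] at h
  exact ⟨i, j, k, ⟨h.1.1.1, h.1.1.2, h.1.2⟩, fun n => eq_of_beq (h.2 n (List.mem_finRange n))⟩

theorem dbl_ok : ∀ i j k : Fin 5, (i ≠ j ∧ i ≠ k ∧ j ≠ k) → ok (cu i, cu j ^^^ cu k) = true ∧ qn (cu j ^^^ cu k) = true ∧
    cu i ≠ 0 ∧ ∀ n, xn (cu i) (cu j ^^^ cu k) (cx n) = cx n := by decide +kernel

theorem R.isC2 {g : V ≃ₗ[ZMod 2] V} {σ : Equiv.Perm (Fin 5)} (hg : R g σ) (h1 : σ * σ = 1) (h2 : σ ≠ 1)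
    (h3 : Equiv.Perm.sign σ = 1) : IsC2 g := by
  obtain ⟨i, j, k, hijk, hn⟩ := dbl σ h1 h2 h3
  obtain ⟨ho, hq, h0, hx⟩ := dbl_ok i j k hijk
  obtain ⟨q1, q2⟩ := ok_iff ho
  have h4 : R (X (dec (cu i)) (dec (cu j ^^^ cu k))) σ :=
    ⟨fun n => by rw [X_dec ho, hn], fun n => by rw [X_dec ho, hx]⟩
  refine ⟨dec (cu i), dec (cu j ^^^ cu k), q1, ?_, q2, ?_, hg.ext h4⟩
  · intro h
    exact h0 (dec_inj (cu_lt i) (by norm_num) (h.trans dec_zero.symm))
  · rw [q_dec, hq]; rfl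

theorem IsC2.mem_Om {g : V ≃ₗ[ZMod 2] V} (h : IsC2 g) : g ∈ Om := by
  obtain ⟨u, w, -, -, -, -, rfl⟩ := h
  exact X_mem u w

theorem IsC2.mul_self {g : V ≃ₗ[ZMod 2] V} (h : IsC2 g) : g * g = 1 := by
  obtain ⟨u, w, -, -, -, -, rfl⟩ := h
  exact X_mul_self u w

theorem IsC2.ne_one {g : V ≃ₗ[ZMod 2] V} (h : IsC2 g) : g ≠ 1 := by
  obtain ⟨u, w, hu, hu0, huw, hw, rfl⟩ := h
  intro h1
  obtain ⟨v, hv⟩ : ∃ v, B u v = 1 := by
    by_contra hcon
    push Not at hcon
    exact hu0 (Model.nondeg fun v => (z2 _).resolve_right (hcon v))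
  have h2 : X u w v = v := by rw [h1]; rfl
  rw [X_apply' hu huw, hv, hw, one_mul, one_smul, one_smul, add_assoc, add_assoc, add_eq_left] at h2
  have h3 : w = (B w v + 1) • u := by
    apply eq_of_add_eq_zero
    rw [add_smul, one_smul]
    exact h2
  have h4 : q w = 0 := by rw [h3, QuadraticMap.map_smul, hu, smul_zero]
  rw [hw] at h4
  exact absurd h4 (by decide)

theorem R.mem_Om' {g : V ≃ₗ[ZMod 2] V} {σ : Equiv.Perm (Fin 5)} (hg : R g σ) (h1 : σ * σ = 1)
    (h3 : Equiv.Perm.sign σ = 1) : g ∈ Om := by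
  by_cases h2 : σ = 1
  · subst h2
    rw [hg.ext R.one]
    exact one_mem _
  · exact IsC2.mem_Om (hg.isC2 h1 h2 h3)

theorem even_two : ∀ σ : Equiv.Perm (Fin 5), Equiv.Perm.sign σ = 1 → ∃ τ : Equiv.Perm (Fin 5), τ * τ = 1 ∧
    Equiv.Perm.sign τ = 1 ∧ (τ * σ) * (τ * σ) = 1 := by decide +kernel

theorem R.mem_Om {g : V ≃ₗ[ZMod 2] V} {σ : Equiv.Perm (Fin 5)} (hg : R g σ) (h : Equiv.Perm.sign σ = 1) : g ∈ Om := by
  obtain ⟨τ, h1, h2, h3⟩ := even_two σ h
  obtain ⟨k, hk⟩ := exists_R τ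
  have h4 := hk.mem_Om' h1 h2
  have h5 := (hk.mul hg).mem_Om' h3 (by rw [Equiv.Perm.sign_mul, h2, h, one_mul])
  have h6 := mul_mem (inv_mem h4) h5
  rwa [inv_mul_cancel_left] at h6

theorem odd_swap : ∀ σ : Equiv.Perm (Fin 5), σ * σ = 1 → Equiv.Perm.sign σ ≠ 1 →
    ∃ i j : Fin 5, i ≠ j ∧ σ = Equiv.swap i j := by decide +kernel

theorem R.sign {g : V ≃ₗ[ZMod 2] V} {σ : Equiv.Perm (Fin 5)} (hg : R g σ) (h1 : σ * σ = 1) (h : g ∈ Om) :
    Equiv.Perm.sign σ = 1 := by
  by_contra h2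
  obtain ⟨i, j, hij, rfl⟩ := odd_swap σ h1 h2
  rw [hg.ext (R_swap hij)] at h
  exact Gen.refl_notMem _ _ h

/-! ### Finite group theory in `S₅` -/

theorem conj0 : ∀ ρ : Equiv.Perm (Fin 5), ρ * ρ = 1 → ρ ≠ 1 → Equiv.Perm.sign ρ = 1 →
    ∃ κ : Equiv.Perm (Fin 5), Equiv.Perm.sign κ = 1 ∧ κ * (Equiv.swap 0 1 * Equiv.swap 2 3) = ρ * κ := by decide +kernel

theorem conj {ρ τ : Equiv.Perm (Fin 5)} (h1 : ρ * ρ = 1) (h2 : ρ ≠ 1) (h3 : Equiv.Perm.sign ρ = 1)
    (h4 : τ * τ = 1) (h5 : τ ≠ 1) (h6 : Equiv.Perm.sign τ = 1) :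
    ∃ κ : Equiv.Perm (Fin 5), Equiv.Perm.sign κ = 1 ∧ ρ = κ * τ * κ⁻¹ := by
  obtain ⟨a, ha, ha'⟩ := conj0 ρ h1 h2 h3
  obtain ⟨b, hb, hb'⟩ := conj0 τ h4 h5 h6
  refine ⟨a * b⁻¹, by rw [Equiv.Perm.sign_mul, Equiv.Perm.sign_inv, ha, hb, one_mul], ?_⟩
  have e1 : ρ = a * (Equiv.swap 0 1 * Equiv.swap 2 3) * a⁻¹ := by rw [ha', mul_inv_cancel_right]
  have e2 : τ = b * (Equiv.swap 0 1 * Equiv.swap 2 3) * b⁻¹ := by rw [hb', mul_inv_cancel_right]
  rw [e1, e2]
  group

theorem comm0 : ∀ ρ : Equiv.Perm (Fin 5), ρ * ρ = 1 → Equiv.Perm.sign ρ ≠ 1 →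
    ∃ r : Equiv.Perm (Fin 5), Equiv.Perm.sign r = 1 ∧ (ρ * r * ρ⁻¹ * r⁻¹) * (ρ * r * ρ⁻¹ * r⁻¹) = 1 ∧
      ρ * r * ρ⁻¹ * r⁻¹ ≠ 1 := by decide +kernel

/-! ### The standard element of order 5 -/

/-- `y` is the standard element of order 5. -/
structure Y (y : V ≃ₗ[ZMod 2] V) : Prop where
  u : ∀ i, y (dec (cu i)) = dec (cu i)
  x : ∀ i, y (dec (cx i)) = dec (cx (i + 1))

/-- action on the ten codes -/
def sh (c : ℕ) : ℕ := if c = 1 then 16 else if c = 16 then 51 else if c = 51 then 87 else if c = 87 then 117 else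
  if c = 117 then 1 else c

/-- action of `y` on codes -/
def yn (n : ℕ) : ℕ := fx ((ten.filter fun c => Bn c n).map sh)

theorem sh_u : ∀ i, sh (cu i) = cu i := by decide +kernel
theorem sh_x : ∀ i, sh (cx i) = cx (i + 1) := by decide +kernel
theorem yn_lt : ∀ n < 256, yn n < 256 := by decide +kernel

theorem Y.dec {y : V ≃ₗ[ZMod 2] V} (hY : Y y) {n : ℕ} (hn : n < 256) : y (dec n) = dec (yn n) := by
  have h1 := foldr_dec (g := y) (s := sh) (ten.filter fun c => Bn c n) fun c hc => by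
    rcases mem_ten c (List.mem_of_mem_filter hc) with ⟨i, rfl⟩ | ⟨i, rfl⟩
    · rw [hY.u, sh_u]
    · rw [hY.x, sh_x]
  rwa [ten_all n hn] at h1

theorem R.comm {g y : V ≃ₗ[ZMod 2] V} {σ : Equiv.Perm (Fin 5)} (hg : R g σ) (hY : Y y) : g * y = y * g := by
  apply ext_frame
  · intro i
    show g (y _) = y (g _)
    rw [hY.u, hg.u, hY.u]
  · intro i
    show g (y _) = y (g _)
    rw [hY.x, hg.x, hg.x, hY.x]

theorem sing_u : ∀ c < 256, yn c = c → qn c = false → c ≠ 0 → ∃ k, c = cu k := by decide +kernel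

/-- sum over the orbit -/
def orb (c : ℕ) : ℕ := c ^^^ (yn c ^^^ (yn (yn c) ^^^ (yn (yn (yn c)) ^^^ yn (yn (yn (yn c))))))

/-- the map `x₀ ↦ c` commuting with `y` -/
def sc (c n : ℕ) : ℕ := if n = 1 then c else if n = 16 then yn c else if n = 51 then yn (yn c) else
  if n = 87 then yn (yn (yn c)) else yn (yn (yn (yn c)))

theorem orb_lt : ∀ c < 256, orb c < 256 := by decide +kernel

theorem xs_all : ∀ c < 256, orb c = 0 → fx (xs.filter fun b => Bn b c) = c := by decide +kernel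

theorem sc_lt : ∀ c < 256, fx ((xs.filter fun b => Bn b c).map (sc c)) < 256 := by decide +kernel

theorem sc_one : ∀ c < 256, orb c = 0 → fx ((xs.filter fun b => Bn b c).map (sc c)) = 1 → c = 1 := by
  decide +kernel

theorem mem_xs : ∀ c ∈ xs, ∃ i, c = cx i := by decide +kernel

/-- An involution commuting with `y` permutes the singular vectors of `U` and is trivial on `[V, y]`. -/
theorem exists_perm {g y : V ≃ₗ[ZMod 2] V} (hY : Y y) (hg : g ∈ O8) (hc : g * y = y * g) (h2 : g * g = 1) :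
    ∃ σ, R g σ := by
  have hcv : ∀ v, g (y v) = y (g v) := fun v => congrArg (fun k : V ≃ₗ[ZMod 2] V => k v) hc
  have h2v : ∀ v, g (g v) = v := fun v => congrArg (fun k : V ≃ₗ[ZMod 2] V => k v) h2
  have h1 : ∀ i, ∃ k, g (dec (cu i)) = dec (cu k) := by
    intro i
    obtain ⟨c, hc, hc'⟩ := dec_surj (g (dec (cu i)))
    have e1 : yn c = c := by
      apply dec_inj (yn_lt c hc) hc
      rw [← hY.dec hc, hc', ← hcv, hY.u]
    have e2 : qn c = false := by
      apply cc_eq_zero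
      rw [← q_dec, hc', O8_q hg, q_dec]
      have : ∀ i, qn (cu i) = false := by decide +kernel
      rw [this]; rfl
    have e3 : c ≠ 0 := by
      rintro rfl
      rw [dec_zero] at hc'
      have h3 := g.map_eq_zero_iff.1 hc'.symm
      have h4 := dec_inj (cu_lt i) (by norm_num) (h3.trans dec_zero.symm)
      have : ∀ i, cu i ≠ 0 := by decide +kernel
      exact this i h4
    obtain ⟨k, rfl⟩ := sing_u c hc e1 e2 e3
    exact ⟨k, hc'.symm⟩
  obtain ⟨c, hc, hc'⟩ := dec_surj (g (dec (cx 0)))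
  have y0 : g (dec (cx 0)) = dec c := hc'.symm
  have y1 : g (dec (cx 1)) = dec (yn c) := by
    rw [← hY.dec hc, ← y0, ← hcv, hY.x]; rfl
  have y2 : g (dec (cx 2)) = dec (yn (yn c)) := by
    rw [← hY.dec (yn_lt _ hc), ← y1, ← hcv, hY.x]; rfl
  have y3 : g (dec (cx 3)) = dec (yn (yn (yn c))) := by
    rw [← hY.dec (yn_lt _ (yn_lt _ hc)), ← y2, ← hcv, hY.x]; rfl
  have y4 : g (dec (cx 4)) = dec (yn (yn (yn (yn c)))) := by
    rw [← hY.dec (yn_lt _ (yn_lt _ (yn_lt _ hc))), ← y3, ← hcv, hY.x]; rfl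
  have horb : orb c = 0 := by
    apply dec_inj (orb_lt c hc) (by norm_num)
    rw [orb, dec_xor, dec_xor, dec_xor, dec_xor, ← y0, ← y1, ← y2, ← y3, ← y4, ← map_add, ← map_add, ← map_add,
      ← map_add, ← dec_xor, ← dec_xor, ← dec_xor, ← dec_xor, dec_zero]
    have : cx 0 ^^^ (cx 1 ^^^ (cx 2 ^^^ (cx 3 ^^^ cx 4))) = 0 := by decide +kernel
    rw [this, dec_zero, map_zero]
  have hone : c = 1 := by
    apply sc_one c hc horb
    apply dec_inj (sc_lt c hc) (by norm_num)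
    rw [← foldr_dec (g := g), xs_all c hc horb, ← y0, h2v]
    · rfl
    · intro b hb
      obtain ⟨i, rfl⟩ := mem_xs b (List.mem_of_mem_filter hb)
      fin_cases i
      · exact y0
      · exact y1
      · exact y2
      · exact y3
      · exact y4
  subst hone
  have hx : ∀ i, g (dec (cx i)) = dec (cx i) := by
    intro i
    have e1 : yn 1 = 16 := by decide +kernel
    have e2 : yn 16 = 51 := by decide +kernel
    have e3 : yn 51 = 87 := by decide +kernel
    have e4 : yn 87 = 117 := by decide +kernel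
    fin_cases i
    · exact y0
    · rw [e1] at y1; exact y1
    · rw [e1, e2] at y2; exact y2
    · rw [e1, e2, e3] at y3; exact y3
    · rw [e1, e2, e3, e4] at y4; exact y4
  choose f hf using h1
  have hinj : Function.Injective f := by
    intro i j hij
    apply cu_inj
    apply dec_inj (cu_lt i) (cu_lt j)
    apply g.injective
    rw [hf, hf, hij]
  exact ⟨Equiv.ofBijective f (Finite.injective_iff_bijective.1 hinj), hf, hx⟩

/-! ### The theorem for the standard element -/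

/-- The conclusion. -/
def Concl (y t : Om) (α : MulAut Om) : Prop :=
  α = 1 ∨
  (∃ c : Om, c * y = y * c ∧ α = MulAut.conj (c * t * c⁻¹)) ∨
  (∃ c r : Om, c * y = y * c ∧ r * y = y * r ∧ α r * r⁻¹ = c * t * c⁻¹)

theorem concl_of_Y {y t : Om} (hY : Y (y : V ≃ₗ[ZMod 2] V)) (ht : IsC2 (t : V ≃ₗ[ZMod 2] V)) (hty : t * y = y * t)
    {α : MulAut Om} (h2 : ∀ g, α (α g) = g) (hy : α y = y) : Concl y t α := by
  -- the element `t`
  obtain ⟨τ, hτ⟩ := exists_perm hY (Om_le t.2) (congrArg Subtype.val hty) (IsC2.mul_self ht)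
  have key : ∀ {g : V ≃ₗ[ZMod 2] V} {σ : Equiv.Perm (Fin 5)}, R g σ → g * g = 1 → σ * σ = 1 := by
    intro g σ hg h
    have h1 := hg.mul hg
    rw [h] at h1
    exact h1.unique R.one
  have key1 : ∀ {g : V ≃ₗ[ZMod 2] V} {σ : Equiv.Perm (Fin 5)}, R g σ → g ≠ 1 → σ ≠ 1 := by
    rintro g σ hg h rfl
    exact h (hg.ext R.one)
  have hτ2 := key hτ (IsC2.mul_self ht)
  have hτ1 := key1 hτ (IsC2.ne_one ht)
  have hτs := hτ.sign hτ2 t.2
  have htt : t * t = 1 := Subtype.ext (IsC2.mul_self ht)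
  -- the element `α t`
  have ha2 : α t * α t = 1 := by rw [← map_mul, htt, map_one]
  have hay : α t * y = y * α t := by
    have := congrArg α hty
    rwa [map_mul, map_mul, hy] at this
  obtain ⟨σ, hσ⟩ := exists_perm hY (Om_le (α t).2) (congrArg Subtype.val hay) (congrArg Subtype.val ha2)
  have hσ2 := key hσ (congrArg Subtype.val ha2)
  have hσ1 := key1 hσ (by
    intro h
    have h1 : α t = 1 := Subtype.ext h
    rw [EmbeddingLike.map_eq_one_iff] at h1
    exact IsC2.ne_one ht (congrArg Subtype.val h1))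
  have hc2 : IsC2 ((α t : Om) : V ≃ₗ[ZMod 2] V) := hσ.isC2 hσ2 hσ1 (hσ.sign hσ2 (α t).2)
  obtain ⟨M, rfl⟩ := mem_range_of_c2 ht hc2
  -- the isometry `M`
  have hM2 : M * M = 1 := by
    apply Frame.Ctx.cj_injective
    rw [map_mul, map_one]
    ext g : 1
    exact h2 g
  have hMy : (M : V ≃ₗ[ZMod 2] V) * y = y * M := by
    have h1 := congrArg Subtype.val hy
    rw [cj_coe] at h1
    exact mul_inv_eq_iff_eq_mul.1 h1
  obtain ⟨ρ, hρ⟩ := exists_perm hY M.2 hMy (congrArg Subtype.val hM2)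
  have hρ2 := key hρ (congrArg Subtype.val hM2)
  have conj_of : ∀ {κ : Equiv.Perm (Fin 5)}, Equiv.Perm.sign κ = 1 →
      ∃ c : Om, c * y = y * c ∧ R (((c * t * c⁻¹ : Om)) : V ≃ₗ[ZMod 2] V) (κ * τ * κ⁻¹) := by
    intro κ hκ
    obtain ⟨k, hk⟩ := exists_R κ
    exact ⟨⟨k, hk.mem_Om hκ⟩, Subtype.ext (hk.comm hY), (hk.mul hτ).mul hk.inv⟩
  by_cases hρ1 : ρ = 1
  · left
    have : M = 1 := by
      apply Subtype.ext
      subst hρ1
      exact hρ.ext R.one
    rw [this, map_one]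
  · right
    by_cases hρs : Equiv.Perm.sign ρ = 1
    · left
      obtain ⟨κ, hκ, e⟩ := conj hρ2 hρ1 hρs hτ2 hτ1 hτs
      obtain ⟨c, hc, hR⟩ := conj_of hκ
      rw [← e] at hR
      have hM : (M : V ≃ₗ[ZMod 2] V) = ((c * t * c⁻¹ : Om) : V ≃ₗ[ZMod 2] V) := hρ.ext hR
      refine ⟨c, hc, ?_⟩
      ext g : 1
      apply Subtype.ext
      rw [cj_coe, hM]
      rfl
    · right
      obtain ⟨r, hr, hr2, hr1⟩ := comm0 ρ hρ2 hρs
      obtain ⟨κ, hκ, e⟩ := conj hr2 hr1 (by
        simp only [Equiv.Perm.sign_mul, Equiv.Perm.sign_inv, hr, mul_one]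
        exact Int.units_mul_self _) hτ2 hτ1 hτs
      obtain ⟨c, hc, hR⟩ := conj_of hκ
      obtain ⟨k, hk⟩ := exists_R r
      refine ⟨c, ⟨k, hk.mem_Om hr⟩, hc, Subtype.ext (hk.comm hY), ?_⟩
      apply Subtype.ext
      rw [← e] at hR
      exact (((hρ.mul hk).mul hρ.inv).mul hk.inv).ext hR

/-! ### Transport -/

theorem Concl.transport {y t : Om} {α φ : MulAut Om} (h : Concl (φ⁻¹ y) (φ⁻¹ t) (φ⁻¹ * α * φ)) : Concl y t α := by
  have e1 : ∀ g, φ (φ⁻¹ g) = g := fun g => MulAut.apply_inv_self _ φ g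
  have e2 : ∀ g, φ⁻¹ (φ g) = g := fun g => MulAut.inv_apply_self _ φ g
  have ec : ∀ {c : Om}, c * φ⁻¹ y = φ⁻¹ y * c → φ c * y = y * φ c := by
    intro c hc
    have := congrArg φ hc
    rwa [map_mul, map_mul, e1] at this
  rcases h with h | ⟨c, hc, h⟩ | ⟨c, r, hc, hr, h⟩
  · left
    have : α = φ * (φ⁻¹ * α * φ) * φ⁻¹ := by group
    rw [this, h]
    group
  · right; left
    refine ⟨φ c, ec hc, ?_⟩
    have : α = φ * (φ⁻¹ * α * φ) * φ⁻¹ := by group
    rw [this, h]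
    ext g : 1
    show φ (c * φ⁻¹ t * c⁻¹ * φ⁻¹ g * (c * φ⁻¹ t * c⁻¹)⁻¹) = φ c * t * (φ c)⁻¹ * g * (φ c * t * (φ c)⁻¹)⁻¹
    simp only [map_mul, map_inv, e1]
  · right; right
    refine ⟨φ c, φ r, ec hc, ec hr, ?_⟩
    have h1 := congrArg φ h
    have h2 : (φ⁻¹ * α * φ) r = φ⁻¹ (α (φ r)) := rfl
    rw [h2] at h1
    simpa only [map_mul, map_inv, e1] using h1

/-! ### An arbitrary element of order 5 -/

section Gen5

variable {y : V ≃ₗ[ZMod 2] V}

/-- The fixed space. -/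
def fixS (y : V ≃ₗ[ZMod 2] V) : Submodule (ZMod 2) V := LinearMap.eqLocus (y : V →ₗ[ZMod 2] V) LinearMap.id

theorem mem_fixS {v : V} : v ∈ fixS y ↔ y v = v := Iff.rfl

theorem card_mod (h5 : ∀ v, y (y (y (y (y v)))) = v) (L : Submodule (ZMod 2) V) (hL : ∀ v ∈ L, y v ∈ L) :
    Nat.card L ≡ Nat.card ↥(L ⊓ fixS y) [MOD 5] := by
  classical
  have : Fact (Nat.Prime 5) := ⟨by norm_num⟩
  let f : Function.End L := fun v => ⟨y v, hL v v.2⟩
  have hf : f ^ 5 ^ 1 = 1 := by
    funext v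
    apply Subtype.ext
    exact h5 v
  have h1 := Equiv.Perm.card_fixedPoints_modEq (α := L) (f := f) (p := 5) (n := 1) hf
  rw [← Nat.card_eq_fintype_card, ← Nat.card_eq_fintype_card] at h1
  have e : Nat.card (Function.fixedPoints f) = Nat.card ↥(L ⊓ fixS y) := by
    refine Nat.card_congr ⟨fun v => ⟨v.1.1, v.1.2, congrArg Subtype.val v.2⟩,
      fun v => ⟨⟨v.1, v.2.1⟩, Subtype.ext v.2.2⟩, fun v => rfl, fun v => rfl⟩
  rw [← e]
  exact h1

theorem card_sub (L : Submodule (ZMod 2) V) : Nat.card L = 2 ^ Module.finrank (ZMod 2) L := by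
  rw [Module.natCard_eq_pow_finrank (K := ZMod 2), Nat.card_zmod]

theorem fin_mod {k : ℕ} (hk : k ≤ 8) (h : 1 ≡ 2 ^ k [MOD 5]) : k = 0 ∨ k = 4 ∨ k = 8 := by
  interval_cases k <;> revert h <;> decide

theorem finrank_fix (h5 : ∀ v, y (y (y (y (y v)))) = v) (h1 : y ≠ 1) {a : V} (ha0 : a ≠ 0) (ha : y a = a) :
    Module.finrank (ZMod 2) ↥(fixS y) = 4 := by
  have e := card_mod h5 ⊤ fun v _ => Submodule.mem_top
  rw [top_inf_eq, card_sub, card_sub, finrank_top, finrank_V] at e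
  have hle : Module.finrank (ZMod 2) ↥(fixS y) ≤ 8 := by
    rw [← finrank_V]; exact Submodule.finrank_le _
  rcases fin_mod hle (Nat.ModEq.trans (by decide) e) with h | h | h
  · exfalso
    have := Submodule.finrank_eq_zero.1 h
    have h2 : a ∈ fixS y := ha
    rw [this] at h2
    exact ha0 ((Submodule.mem_bot _).1 h2)
  · exact h
  · exfalso
    have h2 := Submodule.eq_top_of_finrank_eq (h.trans finrank_V.symm)
    apply h1
    ext v : 1
    have h3 : v ∈ fixS y := by rw [h2]; exact Submodule.mem_top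
    exact h3

/-- the sum over the orbit -/
def orbS (y : V ≃ₗ[ZMod 2] V) (v : V) : V := v + (y v + (y (y v) + (y (y (y v)) + y (y (y (y v))))))

theorem orbS_add (v w : V) : orbS y (v + w) = orbS y v + orbS y w := by
  simp only [orbS, map_add]; abel

theorem orbS_y (h5 : ∀ v, y (y (y (y (y v)))) = v) (v : V) : orbS y (y v) = orbS y v := by
  simp only [orbS, h5]; abel

theorem orbS_fix {v : V} (h : y v = v) : orbS y v = v := by
  simp only [orbS, h]
  rw [add_self, add_zero, add_self, add_zero]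

theorem map_orbS (v : V) : y (orbS y v) = orbS y (y v) := by
  simp only [orbS, map_add]

/-- the span of the orbit -/
def spn (y : V ≃ₗ[ZMod 2] V) (s : V) : Submodule (ZMod 2) V :=
  Submodule.span (ZMod 2) {s, y s, y (y s), y (y (y s)), y (y (y (y s)))}

theorem spn_inv (h5 : ∀ v, y (y (y (y (y v)))) = v) (s : V) : ∀ v ∈ spn y s, y v ∈ spn y s := by
  intro v hv
  have : (spn y s).map (y : V →ₗ[ZMod 2] V) ≤ spn y s := by
    rw [spn, Submodule.map_span, Submodule.span_le]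
    rintro _ ⟨w, hw, rfl⟩
    apply Submodule.subset_span
    simp only [Set.mem_insert_iff, Set.mem_singleton_iff] at hw ⊢
    rcases hw with rfl | rfl | rfl | rfl | rfl
    · right; left; rfl
    · right; right; left; rfl
    · right; right; right; left; rfl
    · right; right; right; right; rfl
    · left; exact h5 s
  exact this ⟨v, hv, rfl⟩

theorem spn_orbS (h5 : ∀ v, y (y (y (y (y v)))) = v) {s : V} (hs : orbS y s = 0) : ∀ v ∈ spn y s, orbS y v = 0 := by
  intro v hv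
  induction hv using Submodule.span_induction with
  | mem v hv =>
    simp only [Set.mem_insert_iff, Set.mem_singleton_iff] at hv
    rcases hv with rfl | rfl | rfl | rfl | rfl
    · exact hs
    · rw [orbS_y h5, hs]
    · rw [orbS_y h5, orbS_y h5, hs]
    · rw [orbS_y h5, orbS_y h5, orbS_y h5, hs]
    · rw [orbS_y h5, orbS_y h5, orbS_y h5, orbS_y h5, hs]
  | zero => simp [orbS]
  | add v w _ _ h1 h2 => rw [orbS_add, h1, h2, add_zero]
  | smul a v _ h =>
    rcases z2 a with rfl | rfl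
    · rw [zero_smul]; simp [orbS]
    · rw [one_smul, h]

theorem spn_top (h5 : ∀ v, y (y (y (y (y v)))) = v) (h4 : Module.finrank (ZMod 2) ↥(fixS y) = 4)
    {s : V} (hs0 : s ≠ 0) (hs : orbS y s = 0) : spn y s ⊔ fixS y = ⊤ := by
  have hinf : spn y s ⊓ fixS y = ⊥ := by
    rw [eq_bot_iff]
    rintro v ⟨h1, h2⟩
    rw [Submodule.mem_bot, ← orbS_fix h2]
    exact spn_orbS h5 hs v h1
  have e := card_mod h5 (spn y s) (spn_inv h5 s)
  rw [hinf, card_sub, card_sub, finrank_bot, pow_zero] at e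
  have hle : Module.finrank (ZMod 2) ↥(spn y s) ≤ 8 := by
    rw [← finrank_V]; exact Submodule.finrank_le _
  have h6 : 4 ≤ Module.finrank (ZMod 2) ↥(spn y s) := by
    rcases fin_mod hle e.symm with h | h | h
    · exfalso
      have := Submodule.finrank_eq_zero.1 h
      have h2 : s ∈ spn y s := Submodule.subset_span (Or.inl rfl)
      rw [this] at h2
      exact hs0 ((Submodule.mem_bot _).1 h2)
    · omega
    · omega
  have h7 := Submodule.finrank_sup_add_finrank_inf_eq (spn y s) (fixS y)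
  rw [hinf, finrank_bot, h4] at h7
  apply Submodule.eq_top_of_finrank_eq
  have h8 : Module.finrank (ZMod 2) ↥(spn y s ⊔ fixS y) ≤ 8 := by
    rw [← finrank_V]; exact Submodule.finrank_le _
  rw [finrank_V]
  omega

/-- A vector orthogonal to the orbit of `s` and to the fixed space is zero. -/
theorem perp_zero (h5 : ∀ v, y (y (y (y (y v)))) = v) (h4 : Module.finrank (ZMod 2) ↥(fixS y) = 4)
    {s : V} (hs0 : s ≠ 0) (hs : orbS y s = 0) {n : V} (h0 : B n s = 0) (h1 : B n (y s) = 0) (h2 : B n (y (y s)) = 0)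
    (h3 : B n (y (y (y s))) = 0) (h4' : B n (y (y (y (y s)))) = 0) (hf : ∀ f, y f = f → B n f = 0) : n = 0 := by
  have key : ∀ a ∈ spn y s, B n a = 0 := by
    intro a ha
    induction ha using Submodule.span_induction with
    | mem v hv =>
      simp only [Set.mem_insert_iff, Set.mem_singleton_iff] at hv
      rcases hv with rfl | rfl | rfl | rfl | rfl
      · exact h0
      · exact h1
      · exact h2
      · exact h3
      · exact h4'
    | zero => exact B_zero_right n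
    | add v w _ _ h1 h2 => rw [B_add_right, h1, h2, add_zero]
    | smul a v _ h => rw [B_smul_right, h, mul_zero]
  apply nondeg
  intro v
  have hv : v ∈ spn y s ⊔ fixS y := by rw [spn_top h5 h4 hs0 hs]; exact Submodule.mem_top
  obtain ⟨a, ha, b, hb, rfl⟩ := Submodule.mem_sup.1 hv
  rw [B_add_right, hf b hb, add_zero, key a ha]

/-- There is a singular vector in `[V, y]` whose orbit is the standard frame. -/
theorem exists_sing (hO : y ∈ O8) (h5 : ∀ v, y (y (y (y (y v)))) = v) (h1 : y ≠ 1) {a : V} (ha0 : a ≠ 0) (ha : y a = a) :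
    ∃ s, s ≠ 0 ∧ orbS y s = 0 ∧ q s = 0 ∧ B s (y s) = 1 ∧ B s (y (y s)) = 1 := by
  have h4 := finrank_fix h5 h1 ha0 ha
  have hB : ∀ u v, B (y u) (y v) = B u v := O8_B hO
  have hq : ∀ v, q (y v) = q v := O8_q hO
  -- `q s = β₁ + β₂`
  have hqs : ∀ s, orbS y s = 0 → q s = B s (y s) + B s (y (y s)) := by
    intro s hs
    have e : y (y (y (y s))) = s + (y s + (y (y s) + y (y (y s)))) := by
      symm
      apply eq_of_add_eq_zero
      rw [← hs, orbS]; abel
    have e1 : q (y (y (y (y s)))) = q s := by rw [hq, hq, hq, hq]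
    have e3 : B s (y (y (y s))) = B s (y (y s)) := by
      rw [← hB s (y (y (y s))), ← hB (y s), h5, B_comm]
    rw [e, q_add, q_add, q_add] at e1
    simp only [B_add_right, hq, hB, e3] at e1
    have : ∀ a b c : ZMod 2, a + (a + (a + a + b) + (b + c)) + (b + (c + c)) = a → a = b + c := by decide
    exact this _ _ _ e1
  have hne : ∀ s, orbS y s = 0 → s ≠ 0 → y s ≠ s := by
    intro s hs hs0 h
    rw [orbS_fix h] at hs
    exact hs0 hs
  have hne2 : ∀ s, orbS y s = 0 → s ≠ 0 → y (y s) ≠ s := by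
    intro s hs hs0 h
    apply hne s hs hs0
    have := h5 s
    rw [h, h] at this
    exact this
  obtain ⟨v₀, hv₀⟩ : ∃ v, y v ≠ v := by
    by_contra hcon
    push Not at hcon
    exact h1 (LinearEquiv.ext hcon)
  have hw : orbS y (v₀ + y v₀) = 0 := by rw [orbS_add, orbS_y h5, add_self]
  have hw0 : v₀ + y v₀ ≠ 0 := fun h => hv₀ (eq_of_add_eq_zero h).symm
  obtain ⟨s, hs, hs0, hqs0⟩ : ∃ s, orbS y s = 0 ∧ s ≠ 0 ∧ q s = 0 := by
    generalize v₀ + y v₀ = w at hw hw0
    rcases z2 (q w) with h | h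
    · exact ⟨w, hw, hw0, h⟩
    · have e := hqs w hw
      rcases z2 (B w (y w)) with h' | h'
      · refine ⟨w + y w, by rw [orbS_add, orbS_y h5, add_self], fun h => hne w hw hw0 (eq_of_add_eq_zero h).symm, ?_⟩
        rw [q_add, hq, h, h']; decide
      · refine ⟨w + y (y w), by rw [orbS_add, orbS_y h5, orbS_y h5, add_self],
          fun h => hne2 w hw hw0 (eq_of_add_eq_zero h).symm, ?_⟩
        have h'' : B w (y (y w)) = 0 := by
          rw [h, h'] at e
          rcases z2 (B w (y (y w))) with h2 | h2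
          · exact h2
          · rw [h2] at e
            exact absurd e (by decide)
        rw [q_add, hq, hq, h, h'']; decide
  refine ⟨s, hs0, hs, hqs0, ?_⟩
  have e := hqs s hs
  rw [hqs0] at e
  rcases z2 (B s (y s)) with h | h
  · exfalso
    have h' : B s (y (y s)) = 0 := by rw [h, zero_add] at e; exact e.symm
    apply hs0
    refine perp_zero h5 h4 hs0 hs (B_self s) h h' ?_ ?_ ?_
    · rw [← hB, ← hB, h5, B_comm]; exact h'
    · rw [← hB, h5, B_comm]; exact h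
    · intro f hf
      have h6 : ∀ v, B (y v) f = B v f := fun v => by rw [← hB v f, hf]
      have h7 : B (orbS y s) f = B s f := by
        simp only [orbS, B_add_left, h6]
        have : ∀ a : ZMod 2, a + (a + (a + (a + a))) = a := by decide
        exact this _
      rw [← h7, hs, B_zero_left]
  · refine ⟨h, ?_⟩
    rw [h] at e
    rcases z2 (B s (y (y s))) with h2 | h2
    · rw [h2] at e
      exact absurd e (by decide)
    · exact h2

end Gen5

/-- Vectors with pairwise product 1 are linearly independent (four of them). -/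
theorem lin_indep {f : Fin 4 → V} (h : ∀ i j, i ≠ j → B (f i) (f j) = 1) : LinearIndependent (ZMod 2) f := by
  rw [Fintype.linearIndependent_iff]
  intro g hg
  have h1 : ∀ j, g 0 * B (f j) (f 0) + g 1 * B (f j) (f 1) + g 2 * B (f j) (f 2) + g 3 * B (f j) (f 3) = 0 := by
    intro j
    have := congrArg (B (f j)) hg
    rw [B_zero_right, Fin.sum_univ_four, B_add_right, B_add_right, B_add_right, B_smul_right, B_smul_right,
      B_smul_right, B_smul_right] at this
    exact this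
  have e0 := h1 0
  have e1 := h1 1
  have e2 := h1 2
  have e3 := h1 3
  rw [B_self, h 0 1 (by decide), h 0 2 (by decide), h 0 3 (by decide)] at e0
  rw [B_self, h 1 0 (by decide), h 1 2 (by decide), h 1 3 (by decide)] at e1
  rw [B_self, h 2 0 (by decide), h 2 1 (by decide), h 2 3 (by decide)] at e2
  rw [B_self, h 3 0 (by decide), h 3 1 (by decide), h 3 2 (by decide)] at e3
  have key : ∀ a b c d : ZMod 2, a * 0 + b * 1 + c * 1 + d * 1 = 0 → a * 1 + b * 0 + c * 1 + d * 1 = 0 →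
      a * 1 + b * 1 + c * 0 + d * 1 = 0 → a * 1 + b * 1 + c * 1 + d * 0 = 0 → a = 0 ∧ b = 0 ∧ c = 0 ∧ d = 0 := by decide
  obtain ⟨a, b, c, d⟩ := key _ _ _ _ e0 e1 e2 e3
  intro i
  fin_cases i
  · exact a
  · exact b
  · exact c
  · exact d

theorem hnd : (QuadraticMap.polarBilin q).Nondegenerate := by
  refine ⟨fun a ha => good.nondeg a ha, fun a ha => good.nondeg a fun b => ?_⟩
  rw [QuadraticMap.polar_comm]
  exact ha b

theorem code_B : ∀ i j : Fin 5, i ≠ j → Bn (cx i) (cx j) = true := by decide +kernel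
theorem code_q : ∀ i : Fin 5, qn (cx i) = false := by decide +kernel
theorem code_ux : ∀ i j : Fin 5, Bn (cu i) (cx j) = false := by decide +kernel
theorem code_sum : cx 4 = cx 0 ^^^ (cx 1 ^^^ (cx 2 ^^^ cx 3)) := by decide +kernel

/-- Every element of order 5 with a fixed vector is conjugate to the standard one. -/
theorem exists_std {y : V ≃ₗ[ZMod 2] V} (hO : y ∈ O8) (h5 : ∀ v, y (y (y (y (y v)))) = v) (h1 : y ≠ 1) {a : V}
    (ha0 : a ≠ 0) (ha : y a = a) : ∃ M ∈ O8, Y (M⁻¹ * y * M) := by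
  obtain ⟨s, hs0, hs, hqs, hb1, hb2⟩ := exists_sing hO h5 h1 ha0 ha
  have h4 := finrank_fix h5 h1 ha0 ha
  have hB : ∀ u v, B (y u) (y v) = B u v := O8_B hO
  have hq : ∀ v, q (y v) = q v := O8_q hO
  have hb3 : B s (y (y (y s))) = 1 := by
    rw [← hB s (y (y (y s))), ← hB (y s), h5, B_comm]; exact hb2
  let f : Fin 4 → V := fun i => dec (cx i.castSucc)
  let g : Fin 4 → V := ![s, y s, y (y s), y (y (y s))]
  have hf : ∀ i j, i ≠ j → B (f i) (f j) = 1 := by
    intro i j hij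
    show B (dec _) (dec _) = 1
    rw [B_dec, code_B _ _ fun h => hij (Fin.castSucc_injective _ h)]; rfl
  have hg : ∀ i j, i ≠ j → B (g i) (g j) = 1 := by
    intro i j hij
    fin_cases i <;> fin_cases j <;> first | exact absurd rfl hij | skip
    · exact hb1
    · exact hb2
    · exact hb3
    · show B (y s) s = 1
      rw [B_comm]; exact hb1
    · show B (y s) (y (y s)) = 1
      rw [hB]; exact hb1
    · show B (y s) (y (y (y s))) = 1
      rw [hB]; exact hb2
    · show B (y (y s)) s = 1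
      rw [B_comm]; exact hb2
    · show B (y (y s)) (y s) = 1
      rw [B_comm, hB]; exact hb1
    · show B (y (y s)) (y (y (y s))) = 1
      rw [hB, hB]; exact hb1
    · show B (y (y (y s))) s = 1
      rw [B_comm]; exact hb3
    · show B (y (y (y s))) (y s) = 1
      rw [B_comm, hB]; exact hb2
    · show B (y (y (y s))) (y (y s)) = 1
      rw [B_comm, hB, hB]; exact hb1
  obtain ⟨M, hM, hM'⟩ := Cfsg.Agent.ClassicalGeometry.WittQuad.extend_family q hnd 4 f g (lin_indep hf) (lin_indep hg)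
    (fun i => by
      show q (dec _) = _
      rw [q_dec, code_q]
      fin_cases i
      · exact hqs.symm
      · exact ((hq _).trans hqs).symm
      · exact ((hq _).trans ((hq _).trans hqs)).symm
      · exact ((hq _).trans ((hq _).trans ((hq _).trans hqs))).symm)
    (fun i j => by
      show B (f i) (f j) = B (g i) (g j)
      by_cases hij : i = j
      · rw [hij, B_self, B_self]
      · rw [hf i j hij, hg i j hij])
  have hMO : M ∈ O8 := mem_O8.2 hM
  have hMB : ∀ u v, B (M u) (M v) = B u v := O8_B hMO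
  have m0 : M (dec (cx 0)) = s := hM' 0
  have m1 : M (dec (cx 1)) = y s := hM' 1
  have m2 : M (dec (cx 2)) = y (y s) := hM' 2
  have m3 : M (dec (cx 3)) = y (y (y s)) := hM' 3
  have m4 : M (dec (cx 4)) = y (y (y (y s))) := by
    rw [code_sum, dec_xor, dec_xor, dec_xor, map_add, map_add, map_add, m0, m1, m2, m3]
    apply eq_of_add_eq_zero
    rw [← hs, orbS]; abel
  refine ⟨M, hMO, ⟨fun i => ?_, fun i => ?_⟩⟩
  · show M.symm (y (M (dec (cu i)))) = _
    rw [LinearEquiv.symm_apply_eq]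
    symm
    apply eq_of_add_eq_zero
    -- orthogonality
    have o : ∀ j, B (M (dec (cu i))) (M (dec (cx j))) = 0 := by
      intro j
      rw [hMB, B_dec, code_ux]; rfl
    have o0 := o 0
    have o1 := o 1
    have o2 := o 2
    have o3 := o 3
    have o4 := o 4
    rw [m0] at o0
    rw [m1] at o1
    rw [m2] at o2
    rw [m3] at o3
    rw [m4] at o4
    generalize M (dec (cu i)) = n at *
    refine perp_zero h5 h4 hs0 hs ?_ ?_ ?_ ?_ ?_ ?_
    · rw [B_add_left, o0, zero_add, ← h5 s, hB]; exact o4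
    · rw [B_add_left, o1, zero_add, hB]; exact o0
    · rw [B_add_left, o2, zero_add, hB]; exact o1
    · rw [B_add_left, o3, zero_add, hB]; exact o2
    · rw [B_add_left, o4, zero_add, hB]; exact o3
    · intro f hf
      rw [B_add_left]
      conv_lhs => rw [← hf, hB, hf]
      exact CharTwo.add_self_eq_zero _
  · show M.symm (y (M (dec (cx i)))) = _
    rw [LinearEquiv.symm_apply_eq]
    fin_cases i
    · show y (M (dec (cx 0))) = M (dec (cx 1))
      rw [m0, m1]
    · show y (M (dec (cx 1))) = M (dec (cx 2))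
      rw [m1, m2]
    · show y (M (dec (cx 2))) = M (dec (cx 3))
      rw [m2, m3]
    · show y (M (dec (cx 3))) = M (dec (cx 4))
      rw [m3, m4]
    · show y (M (dec (cx 4))) = M (dec (cx 0))
      rw [m4, m0, h5]

/-- **Task D2** of S5919: automorphisms of `Ω₈⁺(2)` of order at most two centralising an element `y` of order 5 with a
fixed vector (the statement of `Cfsg.Agent.H942.S62.AutO8`). -/
theorem autO8 : ∀ (y t : ↥StdO8.Model.Om) (_ : y ^ 5 = 1) (_ : y ≠ 1)
    (_ : ∃ a : StdO8.Model.V, a ≠ 0 ∧ (y : StdO8.Model.V ≃ₗ[ZMod 2] StdO8.Model.V) a = a)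
    (_ : StdO8.Aut.IsC2 (t : StdO8.Model.V ≃ₗ[ZMod 2] StdO8.Model.V)) (_ : t * y = y * t)
    (α : MulAut ↥StdO8.Model.Om) (_ : ∀ g, α (α g) = g) (_ : α y = y),
    α = 1 ∨
    (∃ c : ↥StdO8.Model.Om, c * y = y * c ∧ α = MulAut.conj (c * t * c⁻¹)) ∨
    (∃ c r : ↥StdO8.Model.Om, c * y = y * c ∧ r * y = y * r ∧ α r * r⁻¹ = c * t * c⁻¹) := by
  rintro y t hy5 hy1 ⟨a, ha0, ha⟩ ht hty α hα2 hαy
  have h5 : ∀ v, (y : V ≃ₗ[ZMod 2] V) ((y : V ≃ₗ[ZMod 2] V) ((y : V ≃ₗ[ZMod 2] V) ((y : V ≃ₗ[ZMod 2] V)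
      ((y : V ≃ₗ[ZMod 2] V) v)))) = v := by
    intro v
    have h1 : y * (y * (y * (y * y))) = 1 := by
      rw [← hy5]; simp only [pow_succ, pow_zero, one_mul, mul_assoc]
    have h2 := congrArg (fun g : Om => (g : V ≃ₗ[ZMod 2] V) v) h1
    exact h2
  have h1 : (y : V ≃ₗ[ZMod 2] V) ≠ 1 := fun h => hy1 (Subtype.ext h)
  obtain ⟨M, hM, hY⟩ := exists_std (Om_le y.2) h5 h1 ha0 ha
  have e : ∀ g : Om, (((cj ⟨M, hM⟩)⁻¹ g : Om) : V ≃ₗ[ZMod 2] V) = M⁻¹ * g * M := by
    intro g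
    rw [← map_inv, cj_coe]
    show M⁻¹ * (g : V ≃ₗ[ZMod 2] V) * M⁻¹⁻¹ = _
    rw [inv_inv]
  apply Concl.transport (φ := cj ⟨M, hM⟩)
  apply concl_of_Y
  · rw [e]; exact hY
  · have := ht.conj (M := M⁻¹) (inv_mem hM)
    rw [inv_inv] at this
    rw [e]; exact this
  · rw [← map_mul, hty, map_mul]
  · intro g
    show (cj ⟨M, hM⟩)⁻¹ (α (cj ⟨M, hM⟩ ((cj ⟨M, hM⟩)⁻¹ (α (cj ⟨M, hM⟩ g))))) = g
    rw [MulAut.apply_inv_self, hα2, MulAut.inv_apply_self]
  · show (cj ⟨M, hM⟩)⁻¹ (α (cj ⟨M, hM⟩ ((cj ⟨M, hM⟩)⁻¹ y))) = _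
    rw [MulAut.apply_inv_self, hαy]

end Cfsg.Agent.H757.S62
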